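import Cfsg.Agent.H568.OwnCharTw
import Cfsg.Agent.H976.Cop.TwE6Par
import Cfsg.Agent.TwoESix.LongCard

/-!
# S5745, the row `(²E₆(2), Fi₂₂)`: Borel–Tits in `²E₆(2)` (helper406)

`bt` : an involution whose centraliser has order divisible by `11` has its centraliser inside the centraliser of a long
root involution. The centraliser lies in a conjugate of a maximal parabolic subgroup; `11` divides the order of one class
of them only, and these are the centralisers of the long root involutions (orders).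
-/

set_option autoImplicit false

namespace Cfsg.Agent.H406.EPF

open CoxeterSystem Cfsg.Agent.ChevalleyStructure.CoxeterGeom Cfsg.Agent.Tits.Roots Cfsg.Agent.Tits.Core
  Cfsg.Agent.Tits.Exchange Cfsg.Agent.Nodes.Reps Cfsg.Agent.Nodes.BNOf Cfsg.Agent.Nodes.StabComb
  Cfsg.Agent.Nodes.Bruhat Cfsg.Agent.Nodes.OppDec Cfsg.Agent.Nodes.LeviDec Cfsg.Agent.Nodes.NormalForm
open Cfsg.Agent.H934.RowOrb Cfsg.Agent.H436
open Cfsg.Lie Cfsg.Agent.ChevalleyStructure Cfsg.Agent.H35.ExcIdx Cfsg.Agent.H35.PoinNum Cfsg.Agent.H35.Poin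
open Cfsg.Agent.H976.TwE6Par
open Cfsg.Agent.TwoESix.LeviA Cfsg.Agent.TwoESix.LongCard

universe u

/-- the values of `NN` at `2` -/
theorem NN_two : NN 2 0 = 93555 ∧ NN 2 1 = 315 ∧ NN 2 2 = 105 ∧ NN 2 3 = 16065 := by
  refine ⟨?_, ?_, ?_, ?_⟩ <;> rfl

theorem cj_centralizer {G : Type*} [Group G] (g r : G) :
    cj g (Subgroup.centralizer ({r} : Set G)) = Subgroup.centralizer {g * r * g⁻¹} := by
  ext x
  constructor
  · rintro ⟨y, hy, rfl⟩
    have h1 := Subgroup.mem_centralizer_singleton_iff.1 hy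
    refine Subgroup.mem_centralizer_singleton_iff.2 ?_
    show g * y * g⁻¹ * (g * r * g⁻¹) = g * r * g⁻¹ * (g * y * g⁻¹)
    calc g * y * g⁻¹ * (g * r * g⁻¹) = g * (y * r) * g⁻¹ := by group
      _ = g * (r * y) * g⁻¹ := by rw [h1]
      _ = _ := by group
  · intro hx
    have h1 := Subgroup.mem_centralizer_singleton_iff.1 hx
    refine ⟨g⁻¹ * x * g, Subgroup.mem_centralizer_singleton_iff.2 ?_, ?_⟩
    · calc g⁻¹ * x * g * r = g⁻¹ * (x * (g * r * g⁻¹)) * g := by group
        _ = g⁻¹ * (g * r * g⁻¹ * x) * g := by rw [h1]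
        _ = _ := by group
    · show g * (g⁻¹ * x * g) * g⁻¹ = x
      group

section

variable {K : Type u} [Field K] [Fintype K] {φ : K →+* K}

/-- the maximal parabolic subgroup of type `{j | j ≠ i}` -/
noncomputable abbrev Pm (φ : K →+* K) (i : Fin 4) : Subgroup ↥(twistedE6 K 2) :=
  PJ CoxeterMatrix.F₄.toCoxeterSystem Nodes.RGDTwE6.isCartan (Nodes.RGDTwE6.T K 2) (Nodes.RGDTwE6.X φ 2) {j | j ≠ i}

/-- the orders of the maximal parabolic subgroups -/
theorem card_Pm (F : Four K φ) : ∃ a, ∀ i : Fin 4, Nat.card ↥(Pm φ i) = NN 2 i * (3 * 2 ^ a) := by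
  have : Finite (GL chevE6.Idx K) := inferInstance
  have := F.charP
  have hp' : Fact (Nat.Prime 2) := ⟨Nat.prime_two⟩
  have hφ := F.sq
  have hqq := F.sqq
  have hK : Fintype.card K = 2 ^ 2 := by rw [F.card]; norm_num
  have hpp : IsPrimePow 2 := Nat.prime_two.isPrimePow
  have hfin : Finite CoxeterMatrix.F₄.Group := Nodes.RGDFold.finite_W (hp := Nodes.RGDTwE6.hp)
    CoxeterMatrix.F₄.toCoxeterSystem Nodes.RGDTwE6.isCartan Nodes.RGDTwE6.foldData
  have hR := Nodes.RGDTwE6.rgd CoxeterMatrix.F₄.toCoxeterSystem hφ hqq 2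
  have hc := card_X_tw (φ := φ) hφ hqq (by norm_num) hK
  have hT : Nat.gcd 3 (2 + 1) * Nat.card ↥(Nodes.RGDTwE6.T K 2) = (2 - 1) ^ 4 * (2 + 1) ^ 2 := by
    rw [← Cfsg.Agent.S1102.result hpp hK]
    congr 1
    exact Nat.card_congr (Subgroup.subgroupOfEquivOfLe inf_le_right).toEquiv
  have hT3 : Nat.card ↥(Nodes.RGDTwE6.T K 2) = 3 := by
    norm_num at hT
    omega
  obtain ⟨a, ha⟩ := (IsPGroup.iff_card (p := 2)).1 hR.isPGroup_Upos
  have hB : Nat.card ↥(RGD.B CoxeterMatrix.F₄.toCoxeterSystem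
      Nodes.RGDTwE6.isCartan (Nodes.RGDTwE6.T K 2) (Nodes.RGDTwE6.X φ 2)) = 3 * 2 ^ a := by
    rw [card_B' hR, ha, hT3, mul_comm]
  have hFA : FA [(2 : Fin 4)].length (2 ^ 2) * 1 = 1 + 2 ^ 2 := by simp [FA, Finset.sum_range_succ]
  have hN2 := card_step hR path2 (y := 2 ^ 2) (fun i hi => by
    rw [hc]; revert i; simp [fE]) (card_nil hR)
  rw [hFA] at hN2
  have hN12 := card_orbit hR orb1 hc (JL' := [2]) (by decide) hN2
  rw [sum_L1] at hN12
  have hN123 := card_orbit hR orb3 hc (JL' := [1, 2]) (by decide) hN12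
  rw [sum_L3] at hN123
  have hN012 := card_orbit hR orb0 hc (JL' := [1, 2]) (by decide) hN12
  rw [sum_L0] at hN012
  have hN023 := card_step hR path_T_2 (y := 2) (fun i hi => by rw [hc]; revert i; simp [fE])
    (card_step hR path_T_3 (y := 2 ^ 2) (fun i hi => by rw [hc]; revert i; simp [fE]) (card_nil hR))
  have hN013 := card_step hR path_T_0 (y := 2) (fun i hi => by rw [hc]; revert i; simp [fE])
    (card_step hR path_T_1 (y := 2 ^ 2) (fun i hi => by rw [hc]; revert i; simp [fE]) (card_nil hR))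
  have hF1 : FA [(0 : Fin 4)].length 2 * (FA [(2 : Fin 4), 3].length (2 ^ 2) * 1) =
      (1 + 2) * ((1 + 2 ^ 2) * (1 + 2 ^ 2 + 2 ^ 4)) := by
    simp only [FA, List.length_cons, List.length_nil, Finset.prod_range_succ, Finset.prod_range_zero,
      Finset.sum_range_succ, Finset.sum_range_zero]
    norm_num
  have hF2 : FA [(0 : Fin 4), 1].length 2 * (FA [(3 : Fin 4)].length (2 ^ 2) * 1) =
      (1 + 2) * (1 + 2 + 2 ^ 2) * (1 + 2 ^ 2) := by
    simp only [FA, List.length_cons, List.length_nil, Finset.prod_range_succ, Finset.prod_range_zero,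
      Finset.sum_range_succ, Finset.sum_range_zero]
    norm_num
  rw [hF1] at hN023
  rw [hF2] at hN013
  have hset : ∀ i : Fin 4, ({j | j ≠ i} : Set (Fin 4)) =
      {j | j ∈ (![([1, 2, 3] : List (Fin 4)), [0, 2, 3], [0, 1, 3], [0, 1, 2]] i)} := by
    intro i
    ext j
    show j ≠ i ↔ j ∈ _
    revert i j
    decide
  refine ⟨a, fun i => ?_⟩
  rw [← hB]
  show Nat.card ↥(PJ _ _ _ _ _) = _
  rw [hset]
  fin_cases i
  · exact hN123
  · exact hN023
  · exact hN013
  · exact hN012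

/-- the parabolic subgroup of type `{1, 2, 3}` is the centraliser of a long root involution -/
theorem Pm_zero (F : Four K φ) : ∃ g : ↥(twistedE6 K 2), Pm φ 0 = Subgroup.centralizer {g * r0 F * g⁻¹} := by
  have : Finite ↥(twistedE6 K 2) := finite_E
  have := F.charP
  have hp' : Fact (Nat.Prime 2) := ⟨Nat.prime_two⟩
  have hφ := F.sq
  have hqq := F.sqq
  have hfin : Finite CoxeterMatrix.F₄.Group := Nodes.RGDFold.finite_W (hp := Nodes.RGDTwE6.hp)
    CoxeterMatrix.F₄.toCoxeterSystem Nodes.RGDTwE6.isCartan Nodes.RGDTwE6.foldData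
  have hR := Nodes.RGDTwE6.rgd CoxeterMatrix.F₄.toCoxeterSystem hφ hqq 2
  have hG1 : Nodes.RGDLib.G1 CoxeterMatrix.F₄.toCoxeterSystem Nodes.RGDTwE6.isCartan (Nodes.RGDTwE6.X φ 2) = ⊤ :=
    Nodes.RGDTwE6.G1_eq_top _ hφ hqq
  obtain ⟨a, ha⟩ := card_Pm F
  obtain ⟨n0, n1, n2, n3⟩ := NN_two
  obtain ⟨i, g, hg⟩ := exists_par hR hG1 (H := Subgroup.centralizer {r0 F})
    (by rw [index_cent F]; norm_num) (by
      intro h
      have h1 := index_cent F
      rw [h, Subgroup.index_top] at h1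
      norm_num at h1)
  have hg' : cj g (Subgroup.centralizer {r0 F}) ≤ Pm φ i := hg
  have hcc : Nat.card ↥(cj g (Subgroup.centralizer {r0 F})) = 93555 * (3 * 2 ^ 36) := by
    rw [← card_cent F]
    exact Nat.card_congr ((Subgroup.centralizer {r0 F}).equivMapOfInjective (MulAut.conj g).toMonoidHom
      (MulAut.conj g).injective).symm.toEquiv
  have hd := Subgroup.card_dvd_of_le hg'
  rw [hcc, ha i] at hd
  -- `i = 0`
  have h11 : (11 : ℕ) ∣ NN 2 i * (3 * 2 ^ a) := (by norm_num : (11 : ℕ) ∣ 93555 * (3 * 2 ^ 36)).trans hd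
  have hi : i = 0 := by
    have hpr : Nat.Prime 11 := by norm_num
    rcases hpr.dvd_mul.1 h11 with h | h
    · fin_cases i
      · rfl
      · exfalso; change 11 ∣ NN 2 1 at h; rw [n1] at h; norm_num at h
      · exfalso; change 11 ∣ NN 2 2 at h; rw [n2] at h; norm_num at h
      · exfalso; change 11 ∣ NN 2 3 at h; rw [n3] at h; norm_num at h
    · exfalso
      rcases hpr.dvd_mul.1 h with h | h
      · norm_num at h
      · have := hpr.dvd_of_dvd_pow h
        norm_num at this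
  subst hi
  refine ⟨g, ?_⟩
  rw [← cj_centralizer]
  have ha36 : a ≤ 36 := by
    have h1 : 2 ^ a ∣ Nat.card ↥(twistedE6 K 2) := by
      have h2 := Subgroup.card_subgroup_dvd_card (Pm φ 0)
      rw [ha 0] at h2
      exact (Dvd.intro_left (NN 2 0 * 3) (by ring)).trans h2
    rw [card_E F] at h1
    by_contra hc
    have h3 : 2 ^ 37 ∣ 76532479683774853939200 := (pow_dvd_pow 2 (by omega)).trans h1
    norm_num at h3
  refine (Subgroup.eq_of_le_of_card_ge hg' ?_).symm
  rw [hcc, ha 0, n0]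
  exact Nat.mul_le_mul_left _ (Nat.mul_le_mul_left _ (Nat.pow_le_pow_right (by norm_num) ha36))

/-- **Borel–Tits for the involutions centralised by an element of order `11`.** -/
theorem bt (F : Four K φ) (d : ↥(twistedE6 K 2)) (hd : orderOf d = 2)
    (h11 : 11 ∣ Nat.card (Subgroup.centralizer ({d} : Set ↥(twistedE6 K 2)))) :
    ∃ g : ↥(twistedE6 K 2), Subgroup.centralizer {d} ≤ Subgroup.centralizer {g * r0 F * g⁻¹} := by
  classical
  have : Finite ↥(twistedE6 K 2) := finite_E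
  have := F.charP
  have hp' : Fact (Nat.Prime 2) := ⟨Nat.prime_two⟩
  have hφ := F.sq
  have hqq := F.sqq
  have hW : Finite CoxeterMatrix.F₄.Group := Cfsg.Agent.KFacts.TwESix.Comb.finiteW CoxeterMatrix.F₄.toCoxeterSystem
  have hF := Cfsg.Agent.KFacts.RgdFiltTwAll.filt_fold CoxeterMatrix.F₄.toCoxeterSystem Nodes.RGDTwE6.isCartan
    Nodes.RGDTwE6.foldData (Nodes.RGDTwE6.foldGrp hφ hqq) 2
  have hK : IsPGroup 2 ↥(Subgroup.zpowers d) := IsPGroup.of_card (n := 1) (by rw [Nat.card_zpowers, hd, pow_one])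
  have hK1 : Subgroup.zpowers d ≠ ⊥ := by
    rw [Ne, Subgroup.zpowers_eq_bot]
    rintro rfl
    rw [orderOf_one] at hd
    norm_num at hd
  obtain ⟨g, J, hJ, -, hn⟩ := Cfsg.Agent.KFacts.RgdFilt.borel_tits_of_filt hF
    (Nodes.RGDTwE6.G1_eq_top CoxeterMatrix.F₄.toCoxeterSystem hφ hqq) hK hK1
  obtain ⟨i, hi⟩ := (Set.ne_univ_iff_exists_notMem _).1 hJ
  have h1 : Subgroup.centralizer ({d} : Set ↥(twistedE6 K 2)) ≤ cj g (Pm φ i) := by
    have h2 : Subgroup.centralizer ({d} : Set ↥(twistedE6 K 2)) ≤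
        Subgroup.normalizer (Subgroup.zpowers d : Set ↥(twistedE6 K 2)) := by
      rw [← Subgroup.centralizer_closure, ← Subgroup.zpowers_eq_closure]
      exact Subgroup.centralizer_le_normalizer _
    refine (h2.trans hn).trans (Subgroup.map_mono (Cfsg.Agent.H505.Cop.PJ_mono fun j hj => ?_))
    rintro rfl
    exact hi hj
  obtain ⟨a, ha⟩ := card_Pm F
  obtain ⟨n0, n1, n2, n3⟩ := NN_two
  have hcc : Nat.card ↥(cj g (Pm φ i)) = NN 2 i * (3 * 2 ^ a) := by
    rw [← ha i]
    exact Nat.card_congr ((Pm φ i).equivMapOfInjective (MulAut.conj g).toMonoidHom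
      (MulAut.conj g).injective).symm.toEquiv
  have h11' : (11 : ℕ) ∣ NN 2 i * (3 * 2 ^ a) := by
    rw [← hcc]
    exact h11.trans (Subgroup.card_dvd_of_le h1)
  have hi0 : i = 0 := by
    have hpr : Nat.Prime 11 := by norm_num
    rcases hpr.dvd_mul.1 h11' with h | h
    · fin_cases i
      · rfl
      · exfalso; change 11 ∣ NN 2 1 at h; rw [n1] at h; norm_num at h
      · exfalso; change 11 ∣ NN 2 2 at h; rw [n2] at h; norm_num at h
      · exfalso; change 11 ∣ NN 2 3 at h; rw [n3] at h; norm_num at h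
    · exfalso
      rcases hpr.dvd_mul.1 h with h | h
      · norm_num at h
      · have := hpr.dvd_of_dvd_pow h
        norm_num at this
  subst hi0
  obtain ⟨g0, hg0⟩ := Pm_zero F
  refine ⟨g * g0, h1.trans ?_⟩
  rw [hg0, cj_centralizer]
  refine le_of_eq ?_
  congr 2
  group

end

end Cfsg.Agent.H406.EPF
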